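import Cfsg.Prelude.Def_TwoFusion
import Cfsg.Prelude.Def_Solvable
import Cfsg.Agent.S0058
import Mathlib.GroupTheory.Nilpotent

/-!
# S2539, part 4: the `l`-part of the torus (helper792)

`T ⊴ M` abelian and "no element of order `l` of `T` is conjugate into `M` by an element outside `M`":
the `l`-part `lPart T hT l` of `T` is strongly closed in a Sylow `l`-subgroup `P ≤ M` of `Y`.
-/

set_option autoImplicit false

open Subgroup

namespace Cfsg.Agent.H792.OT

universe u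

/-- no element of order `l` of `T` is conjugate into `M` by an element outside `M` -/
def NoEl {Y : Type u} [Group Y] (T M : Subgroup Y) (l : ℕ) : Prop :=
  ∀ y : Y, y ∉ M → ∀ t ∈ T, orderOf t = l → y * t * y⁻¹ ∉ M

theorem NoEl.of_inv {Y : Type u} [Group Y] {T M : Subgroup Y} {l : ℕ}
    (h : ∀ f : Y, f ∉ M → ∀ t ∈ T, orderOf t = l → f⁻¹ * t * f ∉ M) : NoEl T M l := fun y hy t ht ho => by
  have := h y⁻¹ (fun hc => hy (by simpa using M.inv_mem hc)) t ht ho
  rwa [inv_inv] at this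

/-- the `l`-part of an abelian subgroup -/
def lPart {Y : Type u} [Group Y] (T : Subgroup Y) (hT : ∀ a ∈ T, ∀ b ∈ T, a * b = b * a) (l : ℕ) : Subgroup Y where
  carrier := {t | t ∈ T ∧ ∃ k : ℕ, t ^ l ^ k = 1}
  mul_mem' := by
    rintro a b ⟨ha, i, hi⟩ ⟨hb, j, hj⟩
    refine ⟨T.mul_mem ha hb, i + j, ?_⟩
    have hc : Commute a b := hT a ha b hb
    rw [hc.mul_pow, pow_add, pow_mul, hi, one_pow, one_mul, mul_comm (l ^ i), pow_mul, hj, one_pow]
  one_mem' := ⟨T.one_mem, 0, one_pow _⟩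
  inv_mem' := by
    rintro a ⟨ha, i, hi⟩
    exact ⟨T.inv_mem ha, i, by rw [inv_pow, hi, inv_one]⟩

section
variable {Y : Type u} [Group Y] {T : Subgroup Y} {hT : ∀ a ∈ T, ∀ b ∈ T, a * b = b * a} {l : ℕ}

theorem mem_lPart {t : Y} : t ∈ lPart T hT l ↔ t ∈ T ∧ ∃ k : ℕ, t ^ l ^ k = 1 := Iff.rfl

theorem lPart_le : lPart T hT l ≤ T := fun _ h => h.1

theorem isPGroup_lPart : IsPGroup l (lPart T hT l) := fun x => by
  obtain ⟨k, hk⟩ := x.2.2
  exact ⟨k, Subtype.ext hk⟩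

theorem conj_mem_lPart {m : Y} (hm : ∀ t ∈ T, m * t * m⁻¹ ∈ T) {t : Y} (ht : t ∈ lPart T hT l) :
    m * t * m⁻¹ ∈ lPart T hT l := by
  obtain ⟨ht, k, hk⟩ := ht
  exact ⟨hm t ht, k, by rw [conj_pow, hk, mul_one, mul_inv_cancel]⟩

/-- a nontrivial element of the `l`-part has a power of order `l` -/
theorem exists_pow_order [Fact l.Prime] {t : Y} (ht : t ∈ lPart T hT l) (h1 : t ≠ 1) :
    ∃ n : ℕ, orderOf (t ^ n) = l := by
  obtain ⟨-, k, hk⟩ := ht
  obtain ⟨j, -, hj⟩ := (Nat.dvd_prime_pow (Fact.out : l.Prime)).1 (orderOf_dvd_of_pow_eq_one hk)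
  have hj0 : j ≠ 0 := by
    rintro rfl
    rw [pow_zero, orderOf_eq_one_iff] at hj
    exact h1 hj
  obtain ⟨i, rfl⟩ := Nat.exists_eq_succ_of_ne_zero hj0
  refine ⟨l ^ i, ?_⟩
  have h : l ^ i ∣ orderOf t := by rw [hj]; exact pow_dvd_pow _ (Nat.le_succ i)
  have hpos : 0 < l ^ i := pow_pos (Fact.out : l.Prime).pos i
  rw [orderOf_pow_of_dvd hpos.ne' h, hj, pow_succ, Nat.mul_div_cancel_left _ hpos]

theorem lPart_ne_bot [Finite Y] [Fact l.Prime] (h : l ∣ Nat.card T) : lPart T hT l ≠ ⊥ := by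
  obtain ⟨t, ht⟩ := exists_prime_orderOf_dvd_card' l h
  intro hb
  have h1 : (t : Y) ∈ lPart T hT l := ⟨t.2, 1, by
    rw [pow_one, ← ht]
    have := pow_orderOf_eq_one t
    exact_mod_cast congrArg Subtype.val this⟩
  rw [hb, Subgroup.mem_bot] at h1
  have h2 : t = 1 := Subtype.ext h1
  rw [h2, orderOf_one] at ht
  exact (Fact.out : l.Prime).one_lt.ne ht

end

/-- a `p`-subgroup whose normalizer lies in `M` and which is maximal in `M` is Sylow -/
theorem exists_sylow_eq {Y : Type u} [Group Y] [Finite Y] {p : ℕ} [Fact p.Prime] {Q M : Subgroup Y}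
    (hQ : IsPGroup p Q) (hmax : ∀ R : Subgroup Y, R ≤ M → IsPGroup p R → Q ≤ R → R = Q)
    (hN : normalizer (Q : Set Y) ≤ M) : ∃ S : Sylow p Y, (S : Subgroup Y) = Q := by
  obtain ⟨S, hS⟩ := hQ.exists_le_sylow
  refine ⟨S, ?_⟩
  by_contra hne
  have hlt : Q < (S : Subgroup Y) := lt_of_le_of_ne hS (Ne.symm hne)
  have := S.2.isNilpotent
  have hlt' : Q.subgroupOf (S : Subgroup Y) < ⊤ := by
    rw [lt_top_iff_ne_top]
    intro h
    rw [Subgroup.subgroupOf_eq_top] at h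
    exact absurd h (not_le_of_gt hlt)
  have hc := Group.normalizerCondition_of_isNilpotent (G := (S : Subgroup Y)) _ hlt'
  obtain ⟨x, hx, hx'⟩ := SetLike.exists_of_lt hc
  let R : Subgroup Y := (normalizer (Q.subgroupOf (S : Subgroup Y) : Set (S : Subgroup Y))).map (S : Subgroup Y).subtype
  have hRS : R ≤ (S : Subgroup Y) := Subgroup.map_subtype_le _
  have hQR : Q ≤ R := by
    intro q hq
    refine ⟨⟨q, hS hq⟩, ?_, rfl⟩
    exact Subgroup.le_normalizer (Subgroup.mem_subgroupOf.2 hq)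
  have hRN : R ≤ normalizer (Q : Set Y) := by
    rintro _ ⟨r, hr, rfl⟩
    rw [Subgroup.mem_normalizer_iff]
    intro q
    have h1 := Subgroup.mem_normalizer_iff.1 hr
    constructor
    · intro hq
      have := (h1 ⟨q, hS hq⟩).1 (Subgroup.mem_subgroupOf.2 hq)
      exact Subgroup.mem_subgroupOf.1 this
    · intro hq
      have hqS : q ∈ (S : Subgroup Y) := by
        have h2 := (S : Subgroup Y).mul_mem ((S : Subgroup Y).mul_mem ((S : Subgroup Y).inv_mem r.2) (hS hq)) r.2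
        have h3 : ((r : Y))⁻¹ * ((r : Y) * q * (r : Y)⁻¹) * (r : Y) = q := by group
        change ((r : Y))⁻¹ * ((r : Y) * q * (r : Y)⁻¹) * (r : Y) ∈ _ at h2
        rwa [h3] at h2
      have := (h1 ⟨q, hqS⟩).2 (Subgroup.mem_subgroupOf.2 hq)
      exact Subgroup.mem_subgroupOf.1 this
  have hR := hmax R (hRN.trans hN) (S.2.to_le hRS) hQR
  apply hx'
  rw [Subgroup.mem_subgroupOf, ← hR]
  exact ⟨x, hx, rfl⟩

/-- `P` is a Sylow `l`-subgroup of `Y` contained in `M`, and every nontrivial `l`-element of `T` is conjugate into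
`M` by elements of `M` only -/
structure Dat {Y : Type u} [Group Y] (T M : Subgroup Y) (hT : ∀ a ∈ T, ∀ b ∈ T, a * b = b * a) (l : ℕ)
    (P : Sylow l Y) : Prop where
  TM : T ≤ M
  conj : ∀ m ∈ M, ∀ t ∈ T, m * t * m⁻¹ ∈ T
  le : (P : Subgroup Y) ≤ M
  ne : lPart T hT l ≠ ⊥
  leP : lPart T hT l ≤ (P : Subgroup Y)
  sc : ∀ t ∈ lPart T hT l, t ≠ 1 → ∀ y : Y, y * t * y⁻¹ ∈ M → y ∈ M

section
variable {Y : Type u} [Group Y] {T M : Subgroup Y} {l : ℕ}

theorem NoEl.sc [Fact l.Prime] {hT : ∀ a ∈ T, ∀ b ∈ T, a * b = b * a} (h : NoEl T M l) {t : Y}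
    (ht : t ∈ lPart T hT l) (h1 : t ≠ 1) {y : Y} (hy : y * t * y⁻¹ ∈ M) : y ∈ M := by
  by_contra hc
  obtain ⟨n, hn⟩ := exists_pow_order ht h1
  refine h y hc (t ^ n) (T.pow_mem ht.1 n) hn ?_
  rw [← conj_pow]
  exact Subgroup.pow_mem _ hy n

theorem exists_dat [Finite Y] [Fact l.Prime] (hTM : T ≤ M) (hconj : ∀ m ∈ M, ∀ t ∈ T, m * t * m⁻¹ ∈ T)
    (hT : ∀ a ∈ T, ∀ b ∈ T, a * b = b * a) (hl : l ∣ Nat.card T) (h : NoEl T M l) :
    ∃ P : Sylow l Y, Dat T M hT l P := by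
  have hne := lPart_ne_bot (hT := hT) hl
  -- a Sylow subgroup of `M` containing the `l`-part
  have hpg : IsPGroup l ((lPart T hT l).subgroupOf M) :=
    isPGroup_lPart.comap_of_injective M.subtype (Subgroup.subtype_injective M)
  obtain ⟨S, hS⟩ := hpg.exists_le_sylow
  let Q : Subgroup Y := (S : Subgroup M).map M.subtype
  have hQM : Q ≤ M := Subgroup.map_subtype_le _
  have hQ : IsPGroup l Q := S.2.map _
  have hlQ : lPart T hT l ≤ Q := by
    intro t ht
    exact ⟨⟨t, hTM ht.1⟩, hS (Subgroup.mem_subgroupOf.2 ht), rfl⟩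
  have hmax : ∀ R : Subgroup Y, R ≤ M → IsPGroup l R → Q ≤ R → R = Q := by
    intro R hR hRp hQR
    have h1 : (S : Subgroup M) ≤ R.subgroupOf M := by
      intro x hx
      exact Subgroup.mem_subgroupOf.2 (hQR ⟨x, hx, rfl⟩)
    have h2 := S.3 (hRp.comap_of_injective M.subtype (Subgroup.subtype_injective M)) h1
    refine le_antisymm ?_ hQR
    intro x hx
    refine ⟨⟨x, hR hx⟩, ?_, rfl⟩
    rw [SetLike.mem_coe, ← h2]
    exact Subgroup.mem_subgroupOf.2 hx
  obtain ⟨t, ht, ht1⟩ := (lPart T hT l).bot_or_exists_ne_one.resolve_left hne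
  have hN : normalizer (Q : Set Y) ≤ M := by
    intro y hy
    exact h.sc ht ht1 (hQM ((Subgroup.mem_normalizer_iff.1 hy t).1 (hlQ ht)))
  obtain ⟨P, hP⟩ := exists_sylow_eq hQ hmax hN
  exact ⟨P, hTM, hconj, by rw [hP]; exact hQM, hne, by rw [hP]; exact hlQ, fun t ht ht1 y hy => h.sc ht ht1 hy⟩

variable {hT : ∀ a ∈ T, ∀ b ∈ T, a * b = b * a} {P : Sylow l Y}

/-- the `l`-part of `T` is strongly closed -/
theorem Dat.stronglyClosed (D : Dat T M hT l P) : Cfsg.IsStronglyClosed (lPart T hT l) (P : Subgroup Y) := by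
  refine ⟨D.leP, fun t ht y hy => ?_⟩
  by_cases ht1 : t = 1
  · subst ht1
    rw [mul_one, mul_inv_cancel]
    exact one_mem _
  · exact conj_mem_lPart (D.conj y (D.sc t ht ht1 y (D.le hy))) ht

/-- the centralizers of the nontrivial elements of the `l`-part lie in `M` -/
theorem Dat.cent (D : Dat T M hT l P) {t : Y} (ht : t ∈ lPart T hT l) (ht1 : t ≠ 1) {y : Y} (hy : y * t = t * y) :
    y ∈ M := by
  refine D.sc t ht ht1 y ?_
  rw [hy, mul_inv_cancel_right]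
  exact D.TM ht.1

end

end Cfsg.Agent.H792.OT
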